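import Cfsg.Agent.H795.NotAbRows
import Cfsg.Agent.H42.Tw.F4Three
import Cfsg.Agent.H892.HT.Disp

/-!
# S4933, part (O): the Sylow `3`-subgroups of the exceptional groups are not abelian (helper371)

* `not_ab_untw` : `G₂`, `F₄`, `E₆`, `E₇`, `E₈`;
* `not_ab_twE6`, `not_ab_twD4`, `not_ab_twF4`;
* `not_ab_e8_five` : the Sylow `5`-subgroups of `E₈(q)`.
-/

set_option autoImplicit false

namespace Cfsg.Agent.H371.HT

open Cfsg Cfsg.Lie Cfsg.Agent.H892.HT Cfsg.Agent.H800.Sp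

theorem cast_ne {F : Type*} [Field F] [Fintype F] {p : ℕ} (hp : p.Prime) (h : ¬ p ∣ Fintype.card F) : (p : F) ≠ 0 := by
  intro h0
  apply h
  obtain ⟨r, hr⟩ := CharP.exists F
  have hrp : r.Prime := CharP.char_is_prime F r
  have hf : Fact r.Prime := ⟨hrp⟩
  have h1 : r ∣ p := (CharP.cast_eq_zero_iff F r p).1 h0
  have h2 : r = p := (Nat.prime_dvd_prime_iff_eq hrp hp).1 h1
  obtain ⟨n, -, hn⟩ := FiniteField.card F r
  rw [hn, h2]
  exact dvd_pow_self p n.ne_zero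

theorem charP_of {F : Type*} [Field F] [Fintype F] {m : ℕ} (hF : Fintype.card F = 2 ^ (2 * m + 1)) : CharP F 2 := by
  obtain ⟨r, hr⟩ := CharP.exists F
  have hrp : r.Prime := CharP.char_is_prime F r
  have hf : Fact r.Prime := ⟨hrp⟩
  obtain ⟨n, -, hn⟩ := FiniteField.card F r
  have h1 : r ∣ 2 ^ (2 * m + 1) := by
    rw [← hF, hn]
    exact dvd_pow_self r n.ne_zero
  have h2 : r = 2 := (Nat.prime_dvd_prime_iff_eq hrp Nat.prime_two).1 (hrp.dvd_of_dvd_pow h1)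
  rwa [h2] at hr

theorem not_ab {p : ℕ} [Fact p.Prime] {K : Type} [Group K] [Finite K] (h : NotAb p K) : ¬ Ab p K := fun hA => by
  obtain ⟨S⟩ : Nonempty (Sylow p K) := inferInstance
  exact h S (hA S)

variable {F : Type} [Field F] [Fintype F]

theorem notAb_untw {D : ChevalleyDatum} (hD : D ∈ [chevG2, chevF4, chevE6, chevE7, chevE8]) (h3 : ¬ 3 ∣ Fintype.card F) :
    NotAb 3 ↥(D.group F) := by
  have h : (3 : F) ≠ 0 := by exact_mod_cast cast_ne (F := F) Nat.prime_three h3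
  simp only [List.mem_cons, List.not_mem_nil, or_false] at hD
  rcases hD with rfl | rfl | rfl | rfl | rfl
  · exact Cfsg.Agent.H795.NotAbRows.g2 h
  · exact Cfsg.Agent.H795.NotAbRows.f4 h
  · exact Cfsg.Agent.H795.NotAbRows.e6 h
  · exact Cfsg.Agent.H795.NotAbRows.e7 h
  · exact Cfsg.Agent.H795.NotAbRows.e8 h

theorem notAb_twE6 {q : ℕ} (hq : IsPrimePow q) (hF : Fintype.card F = q ^ 2) (h3 : ¬ 3 ∣ Fintype.card F) :
    NotAb 3 ↥(twistedE6 F q) :=
  Cfsg.Agent.H795.NotAbRows.twE6 (by exact_mod_cast cast_ne (F := F) Nat.prime_three h3) hq hF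

theorem notAb_twD4 {q : ℕ} (hq : IsPrimePow q) (hF : Fintype.card F = q ^ 3) (h3 : ¬ 3 ∣ Fintype.card F) :
    NotAb 3 ↥(twistedD4 F q) :=
  Cfsg.Agent.H795.NotAbRows.twD4 (by exact_mod_cast cast_ne (F := F) Nat.prime_three h3) hq hF

theorem notAb_twF4 {m : ℕ} (hF : Fintype.card F = 2 ^ (2 * m + 1)) : NotAb 3 ↥(twistedF4 F (2 ^ m)) := by
  have hch : CharP F 2 := charP_of hF
  exact fun S => Cfsg.Agent.H42.Tw.not_abelian_three F (by positivity) S

theorem not_ab_untw {D : ChevalleyDatum} (hD : D ∈ [chevG2, chevF4, chevE6, chevE7, chevE8]) (h3 : ¬ 3 ∣ Fintype.card F) :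
    ¬ Ab 3 ↥(D.group F) := by
  have : Fact (Nat.Prime 3) := ⟨Nat.prime_three⟩
  have : Finite (GL D.Idx F) := inferInstance
  have : Finite ↥(D.group F) := inferInstance
  exact not_ab (notAb_untw hD h3)

theorem not_ab_twE6 {q : ℕ} (hq : IsPrimePow q) (hF : Fintype.card F = q ^ 2) (h3 : ¬ 3 ∣ Fintype.card F) :
    ¬ Ab 3 ↥(twistedE6 F q) := by
  have : Fact (Nat.Prime 3) := ⟨Nat.prime_three⟩
  exact not_ab (notAb_twE6 hq hF h3)

theorem not_ab_twD4 {q : ℕ} (hq : IsPrimePow q) (hF : Fintype.card F = q ^ 3) (h3 : ¬ 3 ∣ Fintype.card F) :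
    ¬ Ab 3 ↥(twistedD4 F q) := by
  have : Fact (Nat.Prime 3) := ⟨Nat.prime_three⟩
  exact not_ab (notAb_twD4 hq hF h3)

theorem not_ab_twF4 {m : ℕ} (hF : Fintype.card F = 2 ^ (2 * m + 1)) : ¬ Ab 3 ↥(twistedF4 F (2 ^ m)) := by
  have : Fact (Nat.Prime 3) := ⟨Nat.prime_three⟩
  exact not_ab (notAb_twF4 hF)

theorem not_ab_iso2F4 {K : Type} [Group K] (h : Iso2F4 K) : ¬ Ab 3 K := by
  obtain ⟨F, i1, i2, m, -, hF, ⟨e⟩⟩ := h
  have : Fact (Nat.Prime 3) := ⟨Nat.prime_three⟩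
  have : Finite K := Finite.of_equiv _ e.symm.toEquiv
  exact not_ab fun S hS => notAb_twF4 hF (S.mapSurjective (f := e.toMonoidHom) e.surjective) (by
    constructor
    constructor
    rintro ⟨_, a, ha, rfl⟩ ⟨_, b, hb, rfl⟩
    apply Subtype.ext
    show e a * e b = e b * e a
    rw [← map_mul, ← map_mul]
    congr 1
    exact congrArg Subtype.val (hS.is_comm.comm (⟨a, ha⟩ : (S : Subgroup K)) ⟨b, hb⟩))

theorem not_ab_e8_five (h5 : ¬ 5 ∣ Fintype.card F) : ¬ Ab 5 ↥(chevE8.group F) := by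
  have : Fact (Nat.Prime 5) := ⟨Nat.prime_five⟩
  exact not_ab (Cfsg.Agent.H795.NotAbRows.e8_five (by exact_mod_cast cast_ne (F := F) Nat.prime_five h5))

end Cfsg.Agent.H371.HT
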