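import Cfsg.Agent.H234.HT.OutD
import Cfsg.Agent.H71.FldAut

/-!
# S4933, part (O): the automorphism data of `²F₄(q)` (helper371)

`outD_twF4` : helper234's `OutD p 2 (2 m + 1) (²F₄(2 ^ (2 m + 1)))`.
-/

set_option autoImplicit false

namespace Cfsg.Agent.H371.HT

open Cfsg Cfsg.Lie Cfsg.Agent.H234.HT Cfsg.Agent.ChevStructure.FieldMap Polynomial

variable {F : Type} [Field F] {e : ℕ}

/-- conjugation does not change the characteristic polynomial -/
theorem cp_conj {ι : Type} [Fintype ι] [DecidableEq ι] {G : Subgroup (GL ι F)} (g x : ↥G) :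
    cp (MulAut.conj g x) = cp x := by
  have h1 : ((MulAut.conj g x : ↥G) : GL ι F) = (g : GL ι F) * (x : GL ι F) * (g : GL ι F)⁻¹ := rfl
  unfold cp
  rw [h1, Units.val_mul, Units.val_mul, Matrix.charpoly_mul_comm, ← mul_assoc, ← Units.val_mul, inv_mul_cancel,
    Units.val_one, one_mul]

/-- field automorphisms act on the characteristic polynomial -/
theorem cp_fld (τ : F ≃+* F) (x : ↥(twistedF4 F e)) : cp (Cfsg.Agent.S2128.fld τ e x) = (cp x).map (τ : F →+* F) := by
  unfold cp
  rw [Cfsg.Agent.S2128.coe_fld, glEquiv_coe]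
  exact (Matrix.charpoly_map _ (τ : F →+* F))

theorem fld_pow (τ : F ≃+* F) (n : ℕ) (x : ↥(twistedF4 F e)) (i j : chevF4.Idx) :
    ((((Cfsg.Agent.S2128.fld τ e) ^ n) x : GL chevF4.Idx F) : Matrix chevF4.Idx chevF4.Idx F) i j =
      (τ ^ n) (((x : GL chevF4.Idx F) : Matrix chevF4.Idx chevF4.Idx F) i j) := by
  induction n generalizing x with
  | zero => rfl
  | succ n ih =>
    rw [pow_succ, MulAut.mul_apply, ih, pow_succ]
    rfl

/-- **`OutD` for `²F₄(q)`** -/
theorem outD_twF4 [Fintype F] {m : ℕ} (hm : 1 ≤ m) (hF : Fintype.card F = 2 ^ (2 * m + 1)) {p : ℕ} (hp : p.Prime) :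
    OutD p 2 (2 * m + 1) (twistedF4 F (2 ^ m)) where
  out := by
    rw [Cfsg.Agent.S2128.result hm hF]
  frob := by
    intro s hs x
    have h1 : s = RingHom.id F := by
      ext a
      rw [hs, ← hF, FiniteField.pow_card, RingHom.id_apply]
    rw [h1, Polynomial.map_id]
  phi := by
    intro s hs
    let s' : F ≃+* F := RingEquiv.ofBijective s ⟨s.injective, Finite.injective_iff_surjective.1 s.injective⟩
    have hs' : ∀ a, s' a = a ^ 2 := hs
    have hss : (s' : F →+* F) = s := RingHom.ext fun _ => rfl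
    refine ⟨Cfsg.Agent.S2128.fld s' (2 ^ m), ?_, ⟨1, ?_, ?_⟩, ?_⟩
    · intro x
      rw [cp_fld, hss]
    · exact fun h => hp.one_lt.ne' (Nat.dvd_one.1 h)
    · rw [one_mul]
      have h1 : ∀ n a, (s' ^ n) a = a ^ 2 ^ n := by
        intro n
        induction n with
        | zero => intro a; simp
        | succ n ih =>
          intro a
          rw [pow_succ]
          show (s' ^ n) (s' a) = _
          rw [ih, hs', ← pow_mul, pow_succ']
      have h2 : (Cfsg.Agent.S2128.fld s' (2 ^ m)) ^ (2 * m + 1) = 1 := by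
        apply MulEquiv.ext
        intro x
        apply Subtype.ext
        apply Units.ext
        ext i j
        rw [fld_pow, h1, ← hF, FiniteField.pow_card]
        rfl
      rw [h2]
      exact Subgroup.one_mem _
    · intro g x
      obtain ⟨g0, τ, rfl⟩ := Cfsg.Agent.H71.FldAut.twF4_aut hm hF g
      set g := MulAut.conj g0 * Cfsg.Agent.S2128.fld τ (2 ^ m) with hg
      have hcp : ∀ y, cp (g y) = (cp y).map (τ : F →+* F) := by
        intro y
        rw [hg, MulAut.mul_apply, cp_conj, cp_fld]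
      have h1 : x = g (g⁻¹ x) := (MulAut.apply_inv_self _ _ _).symm
      rw [hcp, cp_fld, cp_fld]
      conv_rhs => rw [h1, hcp]
      rw [Polynomial.map_map, Polynomial.map_map]
      congr 1
      ext a
      show τ (s' a) = s' (τ a)
      rw [hs', hs', map_pow]

end Cfsg.Agent.H371.HT
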